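import Mathlib

/-!
# A four-group of the alternating group of degree five
-/

set_option autoImplicit false

namespace Cfsg.Agent.M9

set_option maxRecDepth 100000 in
set_option synthInstance.maxSize 4000 in
theorem a5_four : ∀ a : alternatingGroup (Fin 5), a * a = 1 → a ≠ 1 → ∃ σ : alternatingGroup (Fin 5), σ ^ 3 = 1 ∧ σ ≠ 1 ∧
    (∀ τ, τ * a = a * τ → (τ = 1 ∨ τ = a ∨ τ = σ * a * σ⁻¹ ∨ τ = σ⁻¹ * a * σ) ∧ σ * τ * σ⁻¹ * a = a * (σ * τ * σ⁻¹)) ∧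
    (∀ τ, τ * σ * τ⁻¹ = σ⁻¹ → τ * a * τ⁻¹ * a ≠ a * (τ * a * τ⁻¹)) ∧
    ∀ τ, τ * τ = 1 → τ * a * τ⁻¹ * a = a * (τ * a * τ⁻¹) → τ * a = a * τ := by
  decide +kernel

end Cfsg.Agent.M9
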